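import Groth.Agent.Flat2D.GeomFib
import Groth.Agent.UnramA.SepDegPoints
import Groth.Agent.UnramA.UnibranchCount
import Mathlib.AlgebraicGeometry.AlgClosed.Basic
import Mathlib.AlgebraicGeometry.Morphisms.QuasiFinite
import Mathlib.FieldTheory.IsAlgClosed.AlgebraicClosure

/-!
The geometric number of points of a finite fibre is the sum of the separable degrees of the residue
field extensions at its points.
-/

set_option autoImplicit false
universe u

open AlgebraicGeometry CategoryTheory Limits
open Groth.Agent.Flat2D.GeomFib Groth.Agent.UnramA.SepDegPoints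

namespace Groth.Agent.Ega43.H134.SepCount

/-- The connected components of a discrete space are its points. -/
lemma card_connectedComponents_of_discrete (Z : Type*) [TopologicalSpace Z] [DiscreteTopology Z] :
    ENat.card (_root_.ConnectedComponents Z) = ENat.card Z := by
  refine ENat.card_congr (Equiv.ofBijective ((↑) : Z → _root_.ConnectedComponents Z) ?_).symm
  refine ⟨fun x y h => ?_, ConnectedComponents.surjective_coe⟩
  rw [ConnectedComponents.coe_eq_coe'] at h
  rw [connectedComponent_eq_singleton] at h
  simpa using h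

/-- Geometric number of points of a finite fibre. -/
theorem nGeomConnComp_eq_sum {X Y : Scheme.{u}} (f : X ⟶ Y) [LocallyOfFiniteType f] (y : Y)
    (hfin : (f.base ⁻¹' {y}).Finite) :
    MoreMor.nGeomConnComp f y =
      ((∑ x ∈ hfin.toFinset, EGA4loc.residueSepDegree f x : ℕ) : ℕ∞) := by
  let F := AlgebraicClosure (Y.residueField y)
  let v : Spec (.of F) ⟶ Spec (Y.residueField y) :=
    Spec.map (CommRingCat.ofHom (algebraMap (Y.residueField y) F))
  let γ : Spec (.of F) ⟶ Y := v ≫ Y.fromSpecResidueField y
  have hγ : γ (IsLocalRing.closedPoint F) = y := comp_fromSpecResidueField_apply y _ _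
  let b : pullback f γ ⟶ Spec (.of F) := pullback.snd f γ
  let a : pullback f γ ⟶ X := pullback.fst f γ
  have hP : IsPullback a b f γ := IsPullback.of_hasPullback f γ
  have h1 := nGeomConnComp_eq f γ a b hP
  rw [hγ] at h1
  rw [← h1]
  have hft : LocallyOfFiniteType (f.fiberToSpecResidueField y) :=
    inferInstanceAs (LocallyOfFiniteType (pullback.snd _ _))
  have hff : Finite (f.fiber y) := (f.fiberHomeo y).finite_iff.mpr hfin
  have hfib : LocallyQuasiFinite (f.fiberToSpecResidueField y) :=
    .of_finite_preimage_singleton _ fun x => Set.toFinite _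
  have hb : LocallyQuasiFinite b := by
    obtain ⟨p, hp, -⟩ := exists_isPullback_lift
      (IsPullback.of_hasPullback f (Y.fromSpecResidueField y)) hP v rfl
    exact MorphismProperty.of_isPullback (P := @LocallyQuasiFinite) hp hfib
  have hart : IsLocallyArtinian (pullback f γ) := .of_locallyQuasiFinite b
  have hdisc : DiscreteTopology ↥(pullback f γ) := inferInstance
  rw [card_connectedComponents_of_discrete]
  have hs : ∀ z ∈ f.base ⁻¹' {y}, γ (IsLocalRing.closedPoint F) = f.base z := by
    intro z hz
    rw [hγ]
    exact hz.symm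
  have hs' : ∀ z ∈ f.base ⁻¹' {y}, IsFinAt f z := fun z hz =>
    Groth.Agent.UnramA.UnibranchSpec.isFinAt_of_quasiFiniteAt f z
      (Groth.Agent.UnramA.UnibranchCount.quasiFiniteAt_of_finite f y hfin z hz)
  have h2 := card_pts f γ (f.base ⁻¹' {y}) hfin hs hs'
  rw [← h2]
  have hfinp : Finite (Pts f γ (f.base ⁻¹' {y})) := finite_pts f γ _ hfin hs hs'
  let e1 : ↥(pullback f γ) ≃ closedPoints ↥(pullback f γ) :=
    { toFun := fun x => ⟨x, isClosed_discrete _⟩
      invFun := fun x => x.1
      left_inv := fun x => rfl
      right_inv := fun x => rfl }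
  let e2 : {p : Spec (.of F) ⟶ pullback f γ // p ≫ b = 𝟙 _} ≃ closedPoints ↥(pullback f γ) :=
    pointEquivClosedPoint b
  have he3 : ∀ p : Spec (.of F) ⟶ pullback f γ, p ≫ b = 𝟙 _ → (p ≫ a) ≫ f = γ := by
    intro p hp
    rw [Category.assoc, hP.w, ← Category.assoc, hp, Category.id_comp]
  let e3 : {p : Spec (.of F) ⟶ pullback f γ // p ≫ b = 𝟙 _} ≃ Pts f γ (f.base ⁻¹' {y}) :=
    { toFun := fun p => ⟨p.1 ≫ a, he3 p.1 p.2,
        (congrArg (fun t : Spec (.of F) ⟶ Y => t (IsLocalRing.closedPoint F))
          (he3 p.1 p.2)).trans hγ⟩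
      invFun := fun t => ⟨hP.lift t.1 (𝟙 _) (by rw [t.2.1, Category.id_comp]), hP.lift_snd _ _ _⟩
      left_inv := fun p => by
        apply Subtype.ext
        apply hP.hom_ext
        · simp
        · simp [p.2]
      right_inv := fun t => by
        apply Subtype.ext
        simp }
  rw [ENat.card_congr ((e1.trans e2.symm).trans e3), ENat.card_eq_coe_natCard]

end Groth.Agent.Ega43.H134.SepCount
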